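import Cfsg.Agent.EqC.Aff

/-! The field computation and the list of affine groups. -/

set_option autoImplicit false

namespace CF.EqC

open Subgroup Cfsg CF.Fgs1.EqConj CF.Perm
open scoped Pointwise IsMulCommutative

/-- all planes are semilinearly equivalent -/
def Cov (F : Type*) [Field F] (T : Subgroup (RingAut F)) : Prop :=
  ∀ x y : F, (∀ k : ℤ, (k : F) ≠ x) → (∀ k : ℤ, (k : F) ≠ y) → ∃ τ ∈ T, ∃ i j k l : ℤ,
    (i + j * y : F) ≠ 0 ∧ x = τ ((k + l * y) / (i + j * y))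

variable {p : ℕ} [hp : Fact p.Prime]

theorem Cov.card_le {F : Type*} [Field F] [Finite F] [Algebra (ZMod p) F]
    {T : Subgroup (RingAut F)} (h : Cov F T) :
    Nat.card F ≤ Nat.card T * ((p + 1) * (p * p)) := by
  have : Finite (RingAut F) := DFunLike.finite _
  let c := algebraMap (ZMod p) F
  by_cases hy : ∀ y : F, ∃ k : ℤ, (k : F) = y
  · have h1 : Nat.card F ≤ Nat.card (ZMod p) := Nat.card_le_card_of_surjective c fun y => by
      obtain ⟨k, rfl⟩ := hy y
      exact ⟨k, map_intCast c k⟩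
    rw [Nat.card_zmod] at h1
    have := Nat.card_pos (α := T)
    have := hp.out.pos
    calc _ ≤ 1 * (1 * (p * 1)) := by simpa using h1
      _ ≤ _ := by gcongr <;> omega
  push Not at hy
  obtain ⟨y, hy⟩ := hy
  have h1 := Nat.card_le_card_of_surjective
    (fun t : T × Option (ZMod p) × ZMod p × ZMod p => (t.1 : RingAut F)
      ((c t.2.2.1 + c t.2.2.2 * y) / t.2.1.elim 1 fun s => c s + y)) fun x => ?_
  · simpa [Nat.card_prod, Finite.card_option] using h1
  by_cases hx : ∃ k : ℤ, (k : F) = x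
  · obtain ⟨k, rfl⟩ := hx
    exact ⟨(1, none, k, 0), by simp⟩
  push Not at hx
  obtain ⟨τ, hτ, i, j, k, l, h2, rfl⟩ := h x y hx hy
  rw [← map_intCast c i, ← map_intCast c j] at h2
  rw [← map_intCast c i, ← map_intCast c j, ← map_intCast c k, ← map_intCast c l]
  by_cases hj : (j : ZMod p) = 0
  · refine ⟨(⟨τ, hτ⟩, none, k / i, l / i), congrArg τ ?_⟩
    rw [hj, map_zero, zero_mul, add_zero] at h2 ⊢
    simp only [map_div₀, Option.elim]
    field_simp
  · refine ⟨(⟨τ, hτ⟩, some (i / j), k / j, l / j), congrArg τ ?_⟩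
    have h3 : c j ≠ 0 := (map_ne_zero c).2 hj
    have h4 : c i / c j + y = (c i + c j * y) / c j := by field_simp
    simp only [map_div₀, Option.elim, h4]
    field_simp

theorem Cov.odd {F : Type*} [Field F] [Finite F] [CharP F p] {T : Subgroup (RingAut F)}
    (h : Cov F T) {n : ℕ} (hn : 3 ≤ n) (hF : Nat.card F = p ^ n) : Odd n := by
  classical
  by_contra hodd
  obtain ⟨m, rfl⟩ := Nat.not_odd_iff_even.1 hodd
  have h2 := hp.out.two_le
  obtain ⟨γ, hγ⟩ := IsCyclic.exists_generator (α := Fˣ)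
  have ho : orderOf γ = (p ^ 2) ^ m - 1 := by
    rw [orderOf_eq_card_of_forall_mem_zpowers hγ, Nat.card_units, hF, ← pow_mul, two_mul]
  obtain ⟨d, hd⟩ : p ^ 2 - 1 ∣ (p ^ 2) ^ m - 1 := by
    simpa using Nat.sub_dvd_pow_sub_pow (p ^ 2) 1 m
  have hd0 : d ≠ 0 := by
    rintro rfl
    have := orderOf_pos γ
    omega
  have ho' : orderOf (γ ^ d) = p ^ 2 - 1 := by
    rw [orderOf_pow_of_dvd hd0 (by rw [ho, hd]; exact dvd_mul_left _ _), ho, hd,
      Nat.mul_div_cancel _ (Nat.pos_of_ne_zero hd0)]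
  have hint : ∀ k : ℤ, (k : F) ^ p = k := fun k => map_intCast (frobenius F p) k
  let φ := iterateFrobenius F p 2
  have hφ : ∀ x, φ x = x ^ p ^ 2 := fun _ => rfl
  have hp2 : p ^ 2 = (p ^ 2 - 1) + 1 := by have := pow_pos hp.out.pos 2; omega
  have hy : φ ((γ ^ d : Fˣ) : F) = (γ ^ d : Fˣ) := by
    rw [hφ, hp2, pow_succ, ← Units.val_pow_eq_pow_val, ← ho', pow_orderOf_eq_one, Units.val_one,
      one_mul]
  have hall : ∀ x : F, φ x = x := fun x => by
    by_cases hx : ∃ k : ℤ, (k : F) = x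
    · obtain ⟨k, rfl⟩ := hx
      exact map_intCast φ k
    push Not at hx
    obtain ⟨τ, -, i, j, k, l, -, rfl⟩ := h x ((γ ^ d : Fˣ) : F) hx fun k hk => by
      have h3 : (γ ^ d) ^ (p - 1) = 1 := by
        have h4 : (γ ^ d) ^ p = γ ^ d := Units.ext (by rw [Units.val_pow_eq_pow_val, ← hk, hint])
        rw [show p = p - 1 + 1 by omega, pow_succ, mul_eq_right] at h4
        exact h4
      have := Nat.le_of_dvd (by omega) (ho' ▸ orderOf_dvd_of_pow_eq_one h3)
      have : p * 2 ≤ p ^ 2 := by rw [sq]; exact Nat.mul_le_mul_left _ h2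
      omega
    rw [hφ, ← map_pow, ← hφ]
    simp only [map_div₀, map_add, map_mul, map_intCast, hy]
  have h3 : γ ^ (p ^ 2 - 1) = 1 := by
    have h4 : γ ^ p ^ 2 = γ := Units.ext (by rw [Units.val_pow_eq_pow_val, ← hφ, hall])
    rw [hp2, pow_succ, mul_eq_right] at h4
    exact h4
  have h4 : 2 * 2 ≤ p ^ 2 := by rw [sq]; exact Nat.mul_le_mul h2 h2
  have := Nat.le_of_dvd (by omega) (ho ▸ orderOf_dvd_of_pow_eq_one h3)
  have : (p ^ 2) ^ 1 < (p ^ 2) ^ m := Nat.pow_lt_pow_right (by omega) (by omega)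
  rw [pow_one] at this
  omega

omit hp in
theorem cov_num {n t : ℕ} (h2 : 2 ≤ p) (hn : 3 ≤ n) (ho : Odd n) (ht : t ≤ n)
    (h : p ^ n ≤ t * ((p + 1) * (p * p))) : n = 3 ∨ (n = 5 ∧ p = 2 ∧ 3 ≤ t) := by
  obtain ⟨m, rfl⟩ : ∃ m, n = m + 2 := ⟨n - 2, by omega⟩
  have h1 : p ^ m ≤ t * (p + 1) := by
    refine Nat.le_of_mul_le_mul_right (c := p * p) ?_ (by positivity)
    calc _ = p ^ (m + 2) := by ring
      _ ≤ _ := h
      _ = _ := by ring
  have key : ∀ k : ℕ, (k + 7) * (p + 1) < p ^ (k + 5) := fun k => by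
    induction k with
    | zero =>
      have : 16 ≤ p ^ 4 := Nat.pow_le_pow_left h2 4
      rw [zero_add, zero_add, pow_succ]; nlinarith
    | succ k ih =>
      rw [show k + 1 + 5 = k + 5 + 1 by ring, pow_succ]
      have := Nat.mul_le_mul_left (p ^ (k + 5)) h2
      nlinarith
  obtain ⟨k, hk⟩ := ho
  by_cases h5 : 5 ≤ m
  · obtain ⟨k, rfl⟩ : ∃ k, m = k + 5 := ⟨m - 5, by omega⟩
    have := key k
    have : t * (p + 1) ≤ (k + 7) * (p + 1) := Nat.mul_le_mul_right _ (by omega)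
    omega
  obtain rfl | rfl : m = 1 ∨ m = 3 := by omega
  · exact .inl rfl
  right
  obtain rfl : p = 2 := by
    by_contra h3
    have h3 : 3 ≤ p := by omega
    have : 9 ≤ p ^ 2 := Nat.pow_le_pow_left h3 2
    rw [pow_succ] at h1
    nlinarith
  omega

variable {X : Type*} [Group X] [Finite X]

theorem cov_of (h : EqCj p X) (P : Subgroup X) [hPn : P.Normal] [IsMulCommutative P]
    (hP : ∀ a ∈ P, a ^ p = 1) {F : Type*} [Field F] (e : Additive P ≃+ F) (t : X →* RingAut F)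
    (he : ∀ g : X, ∃ a : Fˣ,
      ∀ v : P, e (.ofMul (MulAut.conjNormal g v)) = a * t g (e (.ofMul v))) : Cov F t.range := by
  let u : F → X := fun x => (e.symm x).toMul
  have hu : ∀ x, u x ∈ P := fun x => (e.symm x).toMul.2
  have hu1 : u 1 ≠ 1 := fun h =>
    one_ne_zero ((map_eq_zero_iff _ e.symm.injective).1 (Subtype.ext h))
  have hz : ∀ (k l : ℤ) (y : F), u y ^ l * u 1 ^ k = u (k + l * y) := fun k l y => by
    rw [add_comm, ← zsmul_eq_mul, ← zsmul_one, show u (l • y + k • 1) = _ from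
      congrArg (fun x : Additive P => (x.toMul : X)) (map_add e.symm _ _), map_zsmul, map_zsmul]
    rfl
  have hinj : Function.Injective u := fun a b h => e.symm.injective (Subtype.ext h)
  have hc : ∀ x, (∀ k : ℤ, (k : F) ≠ x) →
      Nat.card (zpowers (u x) ⊔ zpowers (u 1) : Subgroup X) = p ^ 2 := fun x hx =>
    card_pair (hP _ (hu 1)) (hP _ (hu x)) hu1 (fun ⟨k, hk⟩ => hx k (hinj (by
      simpa using (hz k 0 x).symm.trans (by simpa using hk)))) (setLike_mul_comm (hu 1) (hu x))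
  intro x y hx hy
  obtain ⟨g, hg⟩ := h _ _ (.of_card (hc y hy)) (.of_card (hc x hx)) ((hc y hy).trans (hc x hx).symm)
  obtain ⟨a, ha⟩ := he g
  have key : ∀ z, u z ∈ zpowers (u x) ⊔ zpowers (u 1) →
      ∃ i j : ℤ, z = a * t g (i + j * y) := fun z hz' => by
    obtain ⟨w, hw, hw'⟩ := hg.le hz'
    obtain ⟨_, ⟨j, rfl⟩, _, ⟨i, rfl⟩, rfl⟩ := (CF.Solv.mem_sup_of_le_normalizer
      ((zpowers_le.mpr (CF.Solv.mem_centralizer_zpowers_iff.mpr
        (setLike_mul_comm (hu y) (hu 1)))).trans (centralizer_le_normalizer _))).1 hw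
    refine ⟨i, j, ?_⟩
    have h1 := ha (e.symm (i + j * y)).toMul
    rw [show MulAut.conjNormal g (e.symm (i + j * y)).toMul = (e.symm z).toMul from
      Subtype.ext ((congrArg (g * · * g⁻¹) (hz i j y).symm).trans hw')] at h1
    simpa using h1
  obtain ⟨i, j, h1⟩ := key 1 (mem_sup_right (mem_zpowers _))
  obtain ⟨k, l, h2⟩ := key x (mem_sup_left (mem_zpowers _))
  have h3 : t g (i + j * y) ≠ 0 := fun h => by simp [h] at h1
  refine ⟨t g, ⟨g, rfl⟩, i, j, k, l, fun h => h3 (by rw [h, map_zero]), ?_⟩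
  rw [map_div₀, eq_div_iff h3, h2, mul_right_comm, ← h1, one_mul]

theorem card_sub_one_dvd (h : EqCj 2 X) (P : Subgroup X) [hPn : P.Normal]
    (hP : ∀ a ∈ P, a ^ 2 = 1) (h1 : P ≠ ⊥) : Nat.card P - 1 ∣ Nat.card X := by
  obtain ⟨⟨v, hv⟩, hv1⟩ := ne_bot_iff_exists_ne_one.1 h1
  have hv1 : v ≠ 1 := fun h => hv1 (Subtype.ext h)
  have : MulAction.orbit (ConjAct X) v = (P : Set X) \ {1} := by
    ext w
    constructor
    · rintro ⟨g, rfl⟩
      exact ⟨hPn.conj_mem v hv (ConjAct.ofConjAct g), fun h => hv1 (by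
        simpa [ConjAct.smul_def] using h)⟩
    · rintro ⟨h2, h3⟩
      obtain ⟨g, k, hk⟩ := exists_conj_pow h (hP v hv) (hP w h2) hv1 h3
      refine ⟨ConjAct.toConjAct g, ?_⟩
      rcases Nat.even_or_odd' k with ⟨k, rfl | rfl⟩
      · exact absurd (by simpa [pow_mul, hP v hv] using hk) h3
      · simpa [pow_succ, pow_mul, hP v hv, ConjAct.smul_def] using hk.symm
  have h3 := CF.Perm.card_orbit_dvd (G := ConjAct X) v
  rwa [this, Nat.card_coe_set_eq, Set.ncard_sdiff_singleton_of_mem (one_mem P),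
    ← Nat.card_coe_set_eq] at h3

/-- the affine case -/
theorem affine [Group.IsSolvable X] (h : EqCj p X) (P : Subgroup X) [hPn : P.Normal]
    [IsMulCommutative P] (hP : ∀ a ∈ P, a ^ p = 1) (hC : centralizer (P : Set X) ≤ P)
    (hi : ¬ p ∣ P.index) {n : ℕ} (hn : 3 ≤ n) (hc : Nat.card P = p ^ n) :
    (n = 3 ∧ (∃ f : X →* semiaffineGroup (GaloisField p 3), Function.Injective f) ∧
      (p = 2 → Nonempty (X ≃* semiaffineGroup (GaloisField 2 3)) ∨
        Nonempty (X ≃* affineGroup (GaloisField 2 3)))) ∨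
    (n = 5 ∧ p = 2 ∧ Nonempty (X ≃* semiaffineGroup (GaloisField 2 5))) := by
  have hF := GaloisField.card p n (by omega)
  obtain ⟨e, he⟩ := semilin h P hP hC (.inl hn) hc _ hF
  obtain ⟨f, hf, he⟩ := exists_embed P (hc ▸ (hp.out.coprime_iff_not_dvd.2 hi).pow_left n) hC e he
  have hcov := cov_of h P hP e (twH.comp f) he
  have hA := card_aut_gf p n (by omega)
  have : Finite (RingAut (GaloisField p n)) := DFunLike.finite _
  have hT := hA ▸ card_subgroup_dvd_card (twH.comp f).range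
  have hT' := card_range_dvd (twH.comp f)
  have hb : P ≠ ⊥ := (one_lt_card_iff_ne_bot P).1 (hc ▸ Nat.one_lt_pow (by omega) hp.out.one_lt)
  have hPX := hc ▸ card_subgroup_dvd_card P
  rcases cov_num hp.out.two_le hn (hcov.odd hn hF) (Nat.le_of_dvd (by omega) hT)
    (hF ▸ hcov.card_le) with rfl | ⟨rfl, rfl, h3⟩
  · refine .inl ⟨rfl, ⟨f, hf⟩, ?_⟩
    rintro rfl
    have h7 := hc ▸ card_sub_one_dvd h P hP hb
    have h56 : 8 * 7 ∣ Nat.card X := Nat.Coprime.mul_dvd_of_dvd_of_dvd (by norm_num) hPX h7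
    rcases (Nat.dvd_prime Nat.prime_three).1 hT with h1 | h1
    · refine .inr (equiv_aff f hf (fun g => ?_) (hF ▸ Nat.le_of_dvd Nat.card_pos h56))
      exact (eq_bot_of_card_eq _ h1).le ⟨g, rfl⟩
    · refine .inl (equiv_of_card f hf ?_)
      rw [card_semi, hF, hA]
      exact Nat.le_of_dvd Nat.card_pos
        (Nat.Coprime.mul_dvd_of_dvd_of_dvd (by norm_num) h56 (h1 ▸ hT'))
  · refine .inr ⟨rfl, rfl, equiv_of_card f hf ?_⟩
    have h7 := hc ▸ card_sub_one_dvd h P hP hb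
    have h56 : 32 * 31 ∣ Nat.card X := Nat.Coprime.mul_dvd_of_dvd_of_dvd (by norm_num) hPX h7
    have h1 := ((Nat.dvd_prime (by norm_num : Nat.Prime 5)).1 hT).resolve_left (by omega)
    rw [card_semi, hF, hA]
    exact Nat.le_of_dvd Nat.card_pos
      (Nat.Coprime.mul_dvd_of_dvd_of_dvd (by norm_num) h56 (h1 ▸ hT'))

end CF.EqC
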